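import Mathlib
import Cfsg.Agent.Lib.S4F.Bound
import Cfsg.Agent.Lib.Loc.PReduced

/-!
# Glauberman's factorizations for the prime `2`
-/

set_option autoImplicit false
set_option linter.unusedSectionVars false

namespace Cfsg.Lib.S4F

open Subgroup Cfsg.Lib.BG Cfsg.Lib.Transfer Cfsg.Lib.PLocal Cfsg.Lib.Loc
open Cfsg.Lib.Comp hiding ncl conj_le_ncl le_ncl ncl_le ncl_mono norm_ncl ncl_nml
open scoped commutatorElement

universe u

section egroup

variable {G : Type*} [Group G] {G' : Type*} [Group G'] {H K R S T U V : Subgroup G}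

/-- The numerical property in the definition of an `E`-group. -/
def P1 (V T : Subgroup G) : Prop := ∀ R ≤ T, (∀ r ∈ R, r ^ 2 ∈ 𝐂(V)) → ¬ R ≤ 𝐂(V) →
  𝐂(V).relIndex R ^ 3 < 𝐂(R).relIndex V ^ 2 ∧ 𝐂(V).relIndex R < Nat.card ↥⁅V, R⁆

/-- `E`-groups, as subgroups of an ambient group. -/
def EG (T : Subgroup G) : Prop := ∀ V ≤ T, T ≤ 𝐍(V) → IsElementaryAbelian 2 V → P1 V T → V ≤ 𝐂(T)

/-- `Ĵ(S)` as a subgroup of an ambient group. -/
def Jh (S : Subgroup G) : Subgroup G := sSup {U | U ≤ S ∧ EG U ∧ thompsonSubgroupOf 2 S ≤ U}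

theorem exists_eq_map {f : G →* G'} {Y : Subgroup G'} (h : Y ≤ T.map f) : ∃ X : Subgroup G, Y = X.map f :=
  ⟨Y.comap f, (map_comap_eq_self (h.trans (map_le_range f T))).symm⟩

section map

variable {f : G →* G'} (hf : Function.Injective f)
include hf

theorem p1_map : P1 (V.map f) (T.map f) ↔ P1 V T := by
  have key : ∀ R : Subgroup G, ((∀ r ∈ R.map f, r ^ 2 ∈ 𝐂(V.map f)) → ¬ R.map f ≤ 𝐂(V.map f) →
      𝐂(V.map f).relIndex (R.map f) ^ 3 < 𝐂(R.map f).relIndex (V.map f) ^ 2 ∧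
        𝐂(V.map f).relIndex (R.map f) < Nat.card ↥⁅V.map f, R.map f⁆) ↔ ((∀ r ∈ R, r ^ 2 ∈ 𝐂(V)) → ¬ R ≤ 𝐂(V) →
      𝐂(V).relIndex R ^ 3 < 𝐂(R).relIndex V ^ 2 ∧ 𝐂(V).relIndex R < Nat.card ↥⁅V, R⁆) := fun R => by
    rw [rel_cent_map hf, rel_cent_map hf, map_le_cent_map hf, ← map_commutator, card_map_of_injective hf]
    simp only [mem_map, forall_exists_index, and_imp, forall_apply_eq_imp_iff₂, ← map_pow, mem_cent_map hf]
  refine ⟨fun h R hR => (key R).1 (h _ (map_mono hR)), fun h R hR => ?_⟩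
  obtain ⟨R, rfl⟩ := exists_eq_map hR
  exact (key R).2 (h R ((map_le_map_iff_of_injective hf).1 hR))

theorem eg_map : EG (T.map f) ↔ EG T := by
  refine ⟨fun h V h1 h2 h3 h4 => (map_le_cent_map hf).1 (h _ (map_mono h1) (map_norm f h2) ((elem_map_iff hf).2 h3)
    ((p1_map hf).2 h4)), fun h V h1 h2 h3 h4 => ?_⟩
  obtain ⟨V, rfl⟩ := exists_eq_map h1
  exact map_cent f (h V ((map_le_map_iff_of_injective hf).1 h1) ((map_le_norm_map hf).1 h2) ((elem_map_iff hf).1 h3)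
    ((p1_map hf).1 h4))

theorem jh_map (S : Subgroup G) : (Jh S).map f = Jh (S.map f) := by
  refine le_antisymm (map_le_iff_le_comap.2 (sSup_le fun U hU => map_le_iff_le_comap.1 (le_sSup ⟨map_mono hU.1,
    (eg_map hf).2 hU.2.1, map_thompsonSubgroupOf hf S ▸ map_mono hU.2.2⟩))) (sSup_le fun U hU => ?_)
  obtain ⟨U, rfl⟩ := exists_eq_map hU.1
  exact map_mono (le_sSup ⟨(map_le_map_iff_of_injective hf).1 hU.1, (eg_map hf).1 hU.2.1,
    (map_le_map_iff_of_injective hf).1 (map_thompsonSubgroupOf hf S ▸ hU.2.2)⟩)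

end map

theorem norm_jh (S : Subgroup G) : 𝐍(S) ≤ 𝐍(Jh S) := fun g hg =>
  norm_of_conj_eq ((jh_map (MulAut.conj g).injective S).trans (congrArg Jh (conj_eq_of_norm hg)))

variable [Finite G]

theorem p1_num (V R : Subgroup G) : (Nat.card V ^ 2 * Nat.card ↥(R ⊓ 𝐂(V)) ^ 3 >
    Nat.card R ^ 3 * Nat.card ↥(V ⊓ 𝐂(R)) ^ 2 ∧ Nat.card ↥⁅V, R⁆ * Nat.card ↥(R ⊓ 𝐂(V)) > Nat.card R) ↔
    𝐂(V).relIndex R ^ 3 < 𝐂(R).relIndex V ^ 2 ∧ 𝐂(V).relIndex R < Nat.card ↥⁅V, R⁆ := by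
  have h1 := Nat.card_pos (α := ↥(R ⊓ 𝐂(V)))
  have h2 := Nat.card_pos (α := ↥(V ⊓ 𝐂(R)))
  rw [← rel_mul 𝐂(V) R, ← rel_mul 𝐂(R) V, gt_iff_lt, gt_iff_lt, Nat.mul_lt_mul_right h1, mul_pow, mul_pow, mul_assoc,
    mul_assoc, mul_comm (Nat.card ↥(V ⊓ _) ^ 2), Nat.mul_lt_mul_right (by positivity)]

theorem isEGroup_iff : IsEGroup G ↔ EG (⊤ : Subgroup G) :=
  ⟨fun h V _ h1 h2 h3 => (h V (normalizer_eq_top_iff.1 (top_le_iff.1 h1)) h2 fun R _ e1 e2 =>
      (p1_num V R).2 (h3 R le_top e1 e2)).trans (by rw [coe_top, centralizer_univ]),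
    fun h V _ h2 h3 => (h V le_top (norm_top' _) h2 fun R _ e1 e2 =>
      (p1_num V R).1 (h3 R (comm_le_of_sq e1) e1 e2)).trans (by rw [coe_top, centralizer_univ])⟩

theorem isEGroup_sub : IsEGroup U ↔ EG U := by
  rw [isEGroup_iff, ← eg_map U.subtype_injective, ← MonoidHom.range_eq_map, range_subtype]

theorem jHat_eq (S : Subgroup G) : (jHat S).map S.subtype = Jh S := by
  have : jHat S = Jh ⊤ := by simp only [jHat, Jh, isEGroup_sub, thompsonSubgroupOf_top, le_top, true_and]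
  rw [this, jh_map S.subtype_injective, ← MonoidHom.range_eq_map, range_subtype]

theorem P1.good (h : P1 V S) (h1 : V ≤ S) (h2 : S ≤ 𝐍(V)) (h3 : IsElementaryAbelian 2 V) : Good S V :=
  ⟨h1, h2, h3, fun R hR Q e => by
    have e1 := rel_le_mul 𝐂(R) Q V
    rw [inf_eq_right.2 e.le] at e1
    have e2 := (e.cd Q le_rfl).trans (rel_left (A := 𝐂(V)) (inf_le_right.trans (cent_anti e.le)))
    refine (h R hR e.sq e.nc).1.not_ge ((Nat.pow_le_pow_left e1 2).trans ?_)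
    rw [mul_pow, pow_succ _ 2]
    exact Nat.mul_le_mul (Nat.pow_le_pow_left e2 2) e.small⟩

theorem eg_thompson (S : Subgroup G) : EG (thompsonSubgroupOf 2 S) := fun V h1 h2 h3 h4 => by
  have := (h4.good h1 h2 h3).thompson_le
  rw [thompsonSubgroupOf_eq_of_le le_rfl (thompsonSubgroupOf_le S)] at this
  exact cent_symm this

theorem thompson_le_jh (S : Subgroup G) : thompsonSubgroupOf 2 S ≤ Jh S :=
  le_sSup ⟨thompsonSubgroupOf_le S, eg_thompson S, le_rfl⟩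

theorem jh_eq_of_le (h1 : Jh S ≤ T) (h2 : T ≤ S) : Jh T = Jh S := by
  have h3 := thompsonSubgroupOf_eq_of_le ((thompson_le_jh S).trans h1) h2
  exact le_antisymm (sSup_le fun U hU => le_sSup ⟨hU.1.trans h2, hU.2.1, h3 ▸ hU.2.2⟩)
    (sSup_le fun U hU => le_sSup ⟨(le_sSup hU).trans h1, hU.2.1, h3 ▸ hU.2.2⟩)

theorem P1.jh_le (h : P1 V S) (h1 : V ≤ S) (h2 : S ≤ 𝐍(V)) (h3 : IsElementaryAbelian 2 V) : Jh S ≤ S ⊓ 𝐂(V) :=
  sSup_le fun U hU => le_inf hU.1 (cent_symm (hU.2.1 V ((h.good h1 h2 h3).le_wg.trans ((wg_le_omega S).trans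
    ((PGroup.omegaOne_le _).trans (inf_le_left.trans hU.2.2)))) (hU.1.trans h2) h3 fun R hR => h R (hR.trans hU.1)))

theorem fixed_le (hU : IsMulCommutative U) (pU : IsPGroup 2 U) (hn : H ≤ 𝐍(U)) (hS : S ≤ H)
    (hi : ¬ 2 ∣ S.relIndex H)
    (h : ∀ z ∈ U ⊓ 𝐂(S), z ^ 2 = 1 → z ∈ 𝐂(H)) : U ⊓ 𝐂(S) ≤ 𝐂(H) := fun z hz => by
  have : Fact (Nat.Prime 2) := ⟨Nat.prime_two⟩
  obtain ⟨k, hk⟩ := pU ⟨z, hz.1⟩
  replace hk : z ^ 2 ^ k = 1 := congrArg Subtype.val hk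
  induction k generalizing z with
  | zero => rw [pow_zero, pow_one] at hk; exact hk ▸ one_mem _
  | succ k ih =>
    have h1 := ih (z ^ 2) (pow_mem hz 2) (by rw [← pow_mul, ← pow_succ', hk])
    have h2 : zpowers z ⊔ omegaOne 2 U ≤ U := sup_le (zpowers_le.2 hz.1) (PGroup.omegaOne_le U)
    have h3 : ⁅zpowers z ⊔ omegaOne 2 U, H⁆ ≤ omegaOne 2 U := by
      rw [commutator_sup_of_comm hU hn (zpowers_le.2 hz.1) (PGroup.omegaOne_le U)]
      refine sup_le (commutator_zpowers_le hU hn hz.1 fun g hg => PGroup.mem_omegaOne (comm_mem_left (hn hg) hz.1) ?_)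
        (comm_le_left (norm_Ohm1 hn 2))
      have c : Commute z (g * z⁻¹ * g⁻¹) := abelian_cent hU (conj_mem_of_norm (hn hg) (inv_mem hz.1)) z hz.1
      rw [commutatorElement_def, mul_assoc, mul_assoc, ← mul_assoc g, c.mul_pow, conj_pow, inv_pow,
        inv_mem h1 g hg]
      group
    obtain ⟨c, hc, d, hd, e⟩ := (mem_sup_right_norm (inf_le_left.trans (left_norm_comm _ _))).1
      (inf_centralizer_le_sup_commutator (abelian_of_le hU h2) (pgroup_of_le pU h2)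
        (norm_of_comm_le (h3.trans le_sup_right)) hi ⟨mem_sup_left (mem_zpowers z), hz.2⟩)
    have h4 := (PGroup.mem_omegaOne_iff_of_isMulCommutative hU).1 (h3 hd)
    exact e ▸ mul_mem hc.2 (h d ⟨h4.1, by simpa [← e] using mul_mem (inv_mem (cent_anti hS hc.2)) hz.2⟩ h4.2)

end egroup

variable {G : Type u} [Group G] [Finite G] {H S V : Subgroup G} {g : G}

theorem p1_of_red (hV : IsPReducedNormal 2 V) (hf : Fr (⊤ : Subgroup G)) (hk : KS G) (S : Subgroup G) : P1 V S := by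
  obtain ⟨hn, h1, _, h2⟩ := hV
  have hm := model_hol V
  generalize PGroup.holL V = j, (PGroup.holR V).comp MulAut.conjNormal = π at hm
  have h3 : pCore 2 ((⊤ : Subgroup G).map π) = ⊥ := by
    rw [← MonoidHom.range_eq_map, ← Core.map_pCore_equiv ((QuotientGroup.quotientMulEquivOfEq hm.ker_eq.symm).trans
      (QuotientGroup.quotientKerEquivRange π)), h2, Subgroup.map_bot]
  intro R _ e1 e2
  obtain ⟨h4, h5⟩ := bounds_of (A := R.map π) (Model.elemAb_range h1) (hm.map_le_normalizer ⊤)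
    (hm.map_inf_centralizer ⊤) h3 (hf.map π) (hk.of_section (hasSection_refl.of_map.of_subgroup)) (map_mono le_top)
    (PGroup.elemAb_two_iff.2 (by rintro _ ⟨a, ha, rfl⟩; rw [← map_pow]; exact hm.ker (e1 a ha)))
  have h6 : ⁅j.range, R.map π⁆ ≤ (⁅V, R⁆.subgroupOf V).map j := commutator_le.2 (by
    rintro _ ⟨v, rfl⟩ _ ⟨r, hr, rfl⟩
    obtain ⟨u, hu, e⟩ := hm.conj r v⁻¹
    refine ⟨v * u, ?_, by rw [map_mul, e, map_inv, commutatorElement_def]; group⟩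
    simpa [mem_subgroupOf, hu, commutatorElement_def, mul_assoc] using commutator_mem_commutator v.2 hr)
  replace h5 := h5.trans (card_le_of_le h6)
  rw [card_map_of_injective hm.inj, subOf_card (commutator_le_left _ _)] at h5
  rw [hm.card_inf_centralizer, hm.card_range, ← rel_mul 𝐂(R) V, Nat.mul_le_mul_right_iff Nat.card_pos] at h4
  rw [← relIndex_ker, hm.ker_eq] at h4 h5
  have := one_lt_rel e2
  exact ⟨(Nat.pow_lt_pow_right this (by norm_num : 3 < 2 * 2)).trans_le ((pow_mul _ 2 2).trans_le (Nat.pow_le_pow_left h4 2)),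
    lt_of_lt_of_le (by nlinarith) h5⟩

variable (hc : IsChP 2 H) (hf : Fr H) (hk : KS H) (hS : S ≤ H) (pS : IsPGroup 2 S) (hi : ¬ 2 ∣ S.relIndex H)
include hc hS pS hi

theorem cent_center {K : Subgroup G} (h1 : K ≤ H) (h2 : S ≤ 𝐍(K)) (h3 : K ≤ 𝐂(omegaOne 2 (S ⊓ 𝐂(S)))) :
    K ≤ 𝐂(S ⊓ 𝐂(S)) := by
  have : Fact (Nat.Prime 2) := ⟨Nat.prime_two⟩
  have h4 := core_le_of_not_dvd hi
  have h5 : S ⊓ 𝐂(S) ≤ 𝐙(pCoreOf 2 H) ⊓ 𝐂(S) := le_inf (le_inf (hc.le_core (inf_le_left.trans hS)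
    (inf_le_right.trans (cent_anti h4))) (inf_le_right.trans (cent_anti h4))) inf_le_right
  refine cent_symm (h5.trans ((fixed_le (H := K ⊔ S) (abelian_center _) (pgroup_of_le (core_pgroup 2 H) inf_le_left)
    ((sup_le h1 hS).trans (norm_center (le_normalizer_core 2 H))) le_sup_right
    (fun e => hi (e.trans (relIndex_dvd_right le_sup_right (sup_le h1 hS)))) fun z hz e => ?_).trans
      (cent_anti le_sup_left)))
  rw [cent_sup]
  exact ⟨cent_symm h3 (PGroup.mem_omegaOne ⟨h4 hz.1.1, hz.2⟩ e), hz.2⟩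

include hf hk

theorem le_norm_wg : H ≤ 𝐍(Wg S) := by
  have := wg_normal (S := S.subgroupOf H) (fun e => hf e.of_subgroup) hk (Core.pCore_isPGroup 2 H) (isChP_iff.1 hc)
    (pS.comap_of_injective _ H.subtype_injective) (by rwa [relIndex_top_right])
  have := map_norm H.subtype (norm_top' (Q := Wg (S.subgroupOf H)) ⊤)
  rwa [wg_map H.subtype_injective, subOf_map hS, ← MonoidHom.range_eq_map, range_subtype] at this

theorem fact_wg (hg : g ∈ H) : ∃ c ∈ H ⊓ 𝐂(Wg S), c⁻¹ * g ∈ 𝐍(thompsonSubgroupOf 2 S) := by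
  have : Fact (Nat.Prime 2) := ⟨Nat.prime_two⟩
  have h1 := (Nml.cent (le_norm_wg hc hf hk hS pS hi))
  obtain ⟨c, h2, e⟩ := frattini_argument (T := S ⊓ 𝐂(Wg S)) (inf_le_inf_right _ hS) (pgroup_of_le pS inf_le_left) (by
    rw [rel_congr (B := S) (by rw [inf_comm S, ← inf_assoc, inf_assoc H, inf_idem])]
    exact not_dvd_relIndex_of_le_normalizer hi h1.le h1.norm) h1.norm hg
  have h4 := normalizer_le_normalizer_thompsonSubgroupOf (e := 2) _ e
  rw [thompsonSubgroupOf_eq_of_le (le_inf (thompsonSubgroupOf_le S) (good_wg S).thompson_le) inf_le_left] at h4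
  exact ⟨c⁻¹, inv_mem h2, by rwa [inv_inv]⟩

theorem fact_one (hg : g ∈ H) : ∃ c ∈ 𝐂(S ⊓ 𝐂(S)), ∃ n ∈ 𝐍(thompsonSubgroupOf 2 S), g = c * n := by
  obtain ⟨c, h1, h2⟩ := fact_wg hc hf hk hS pS hi hg
  exact ⟨c, cent_center hc hS pS hi inf_le_left (norm_inf (le_norm_of_le hS) (norm_cent (good_wg S).norm))
    (inf_le_right.trans (cent_anti (omega_le_wg S))) h1, _, h2, by simp⟩

theorem fact_three (hg : g ∈ H) :
    ∃ c ∈ 𝐂(omegaOne 2 (Jh S ⊓ 𝐂(Jh S))), ∃ n ∈ 𝐍(thompsonSubgroupOf 2 S), g = c * n := by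
  have : Fact (Nat.Prime 2) := ⟨Nat.prime_two⟩
  induction H using WellFoundedLT.induction generalizing S g with | ind H ih
  obtain ⟨c, h1, h2⟩ := fact_wg hc hf hk hS pS hi hg
  by_cases e : EG S
  · rw [show Jh S = S from le_antisymm (sSup_le fun U hU => hU.1) (le_sSup ⟨le_rfl, e, thompsonSubgroupOf_le S⟩)]
    exact ⟨c, cent_anti (omega_le_wg S) h1.2, _, h2, by simp⟩
  obtain ⟨V, v1, v2, v3, v4, v5⟩ : ∃ V ≤ S, S ≤ 𝐍(V) ∧ IsElementaryAbelian 2 V ∧ P1 V S ∧ ¬ V ≤ 𝐂(S) := by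
    by_contra! h; exact e h
  have h3 := v4.jh_le v1 v2 v3
  have h4 : H ⊓ 𝐂(V) ≤ H ⊓ 𝐍(V) := inf_le_inf_left H (cent_le_norm V)
  obtain ⟨d, hd, n, hn, e'⟩ := ih (H ⊓ 𝐂(V)) (inf_lt_left.2 fun e => v5 (cent_symm (hS.trans e))) (S := S ⊓ 𝐂(V))
    (hc.inf_centralizer (pgroup_of_le pS v1) (v1.trans hS)) (hf.mono inf_le_left)
    (hk.of_section (hasSection_refl.of_le inf_le_left)) (inf_le_inf_right _ hS) (pgroup_of_le pS inf_le_left) (by
      rw [rel_congr (B := S) (by rw [inf_comm S, ← inf_assoc, inf_assoc H, inf_idem])]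
      exact not_dvd_relIndex_of_le_normalizer (fun e => hi (e.trans (relIndex_dvd_right (le_inf hS v2) inf_le_left)))
        h4 (norm_inf (le_norm_of_le inf_le_left) (norm_cent inf_le_right)))
    ⟨h1.1, cent_anti (v4.good v1 v2 v3).le_wg h1.2⟩
  rw [jh_eq_of_le h3 inf_le_left] at hd
  rw [thompsonSubgroupOf_eq_of_le ((thompson_le_jh S).trans h3) inf_le_left] at hn
  exact ⟨d, hd, _, mul_mem hn h2, by rw [← mul_assoc, ← e']; simp⟩

omit hc hf hk hS hi in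
theorem fact_two (hc : IsChP 2 (⊤ : Subgroup G)) (hf : Fr (⊤ : Subgroup G)) (hk : KS G) (hi : ¬ 2 ∣ S.relIndex ⊤)
    (g : G) : ∃ c ∈ 𝐂(S ⊓ 𝐂(S)), ∃ n ∈ 𝐍(Jh S), g = c * n := by
  have : Fact (Nat.Prime 2) := ⟨Nat.prime_two⟩
  have h1 : PRed 2 (ncl (omegaOne 2 (S ⊓ 𝐂(S))) ⊤) ⊤ := (pRed_oz S).iSup_conj le_top hi hc
  have h2 := isPReducedNormal_iff_top.2 h1
  have := h2.1
  have h3 := (p1_of_red h2 hf hk S).jh_le (h1.le_core.trans (core_le_of_not_dvd hi)) (norm_top' S) h2.2.1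
  obtain ⟨c, h4, h5⟩ := frattini_cent (V := ncl (omegaOne 2 (S ⊓ 𝐂(S))) ⊤) pS hi g
  exact ⟨c⁻¹, cent_center hc le_top pS hi le_top (norm_top' S) (cent_anti (le_ncl _ _)) (inv_mem h4), _,
    jh_eq_of_le h3 inf_le_left ▸ norm_jh _ h5, by simp⟩

end Cfsg.Lib.S4F
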